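import Cfsg.Agent.H869.EPO.SpTD

/-!
# The row `³D₄(4)` of `Six` (helper869)
-/

set_option autoImplicit false

namespace Cfsg.Agent.H869.EPO

open Cfsg

/-- **No subgroup `N ≅ Sp₆(2)` in `G ≅ ³D₄(4)`.** -/
theorem six_td4 {K : Type*} [Field K] [Fintype K] (hK : Fintype.card K = 64) {G : Type*} [Group G]
    (g : G ≃* ↥(Lie.twistedD4 K 4)) {N : Subgroup G} {T : Type*} [Group T] (e : N ≃* (Fin 1 → T))
    {F : Type*} [Field F] [Fintype F] (hF : Fintype.card F = 2) (t : T ≃* PSp 3 F) : False := by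
  let i : T →* (Fin 1 → T) := Pi.constMonoidHom (Fin 1) T
  have hi : Function.Injective i := fun a b h => congrFun h 0
  exact sp6_td4 hK hF t ((g.toMonoidHom.comp N.subtype).comp (e.symm.toMonoidHom.comp i))
    ((g.injective.comp N.subtype_injective).comp (e.symm.injective.comp hi))

/-- the same with `q = 2 ^ f`, `f = 2` -/
theorem six_td4' {K : Type*} [Field K] [Fintype K] {f : ℕ} (hf : f = 2) (hK : Fintype.card K = (2 ^ f) ^ 3)
    {G : Type*} [Group G] (g : G ≃* ↥(Lie.twistedD4 K (2 ^ f))) {N : Subgroup G} {T : Type*} [Group T]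
    (e : N ≃* (Fin 1 → T)) {F : Type*} [Field F] [Fintype F] (hF : Fintype.card F = 2) (t : T ≃* PSp 3 F) : False := by
  subst hf
  exact six_td4 (by rw [hK]; norm_num) g e hF t

end Cfsg.Agent.H869.EPO
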